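import Groth.Agent.PerfB.KoszulOn

/-! Sharp forms of Koszul (non-)orthogonality in `D(A)`:
* `isZero_homology`: if the cohomology of `M` is `l`-power torsion and `Hom(K(l), M⟦n⟧) = 0` then
  `H^n(M) = 0` (same `n`);
* `hom_eq_zero_of_isLE`: `Hom(K(l), M) = 0` if `H^i(M) = 0` for all `i ≥ -length l`. -/

set_option autoImplicit false
universe w u

open CategoryTheory CategoryTheory.Limits Pretriangulated Koszul
open Groth.Agent.PerfB.KoszulHom Groth.Agent.PerfB.KoszulOn

namespace Groth.Agent.Old.H5.KosSharp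

variable {A : Type u} [CommRing A] [HasDerivedCategory.{w} (ModuleCat.{u} A)]

lemma hom_unit_eq_zero (M : DerivedCategory (ModuleCat.{u} A)) : ∀ (l : List A),
    (∀ a ∈ l, ∀ i : ℤ, TorsD a i M) →
    (∀ φ : DerivedCategory.Q.obj (koszul A l) ⟶ M, φ = 0) →
    ∀ φ : DerivedCategory.Q.obj (koszul A []) ⟶ M, φ = 0 := by
  intro l
  induction l with
  | nil => intro _ h φ; exact h φ
  | cons f l ih =>
    intro hT hK
    refine ih (fun a ha i => hT a (List.mem_cons_of_mem _ ha) i) ?_
    have key : ∀ ψ : DerivedCategory.Q.obj (koszul A l) ⟶ M, f • ψ = 0 → ψ = 0 := by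
      intro ψ hψ
      obtain ⟨χ, hχ⟩ := factor_cons f l M ψ hψ
      have h0 : χ = 0 := hK χ
      rw [← hχ, h0]
      exact comp_zero
    intro φ
    obtain ⟨k, hk⟩ := hom_koszul_torsion f l M (fun j _ _ => hT f List.mem_cons_self j) φ
    induction k with
    | zero => simpa using hk
    | succ k ihk =>
      apply ihk
      apply key
      rw [smul_smul, ← pow_succ', hk]

/-- The sharp form: torsion cohomology and no maps `K(l) ⟶ M⟦n⟧` give `H^n(M) = 0`. -/
theorem isZero_homology (M : DerivedCategory (ModuleCat.{u} A)) (l : List A) (n : ℤ)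
    (hT : ∀ a ∈ l, ∀ i : ℤ, TorsD a i M)
    (hK : ∀ φ : DerivedCategory.Q.obj (koszul A l) ⟶ M⟦n⟧, φ = 0) :
    IsZero ((DerivedCategory.homologyFunctor (ModuleCat.{u} A) n).obj M) :=
  IsZero.of_iso (isZero_homology_of_hom_eq_zero (M⟦n⟧)
    (fun φ => hom_unit_eq_zero (M⟦n⟧) l
      (fun a ha i => (hT a ha (n + i)).shift n i rfl) hK φ))
    (homologyShiftIso M n 0 n (by simp)).symm

/-- `Hom(K(l), M) = 0` if `M` has no cohomology in degrees `≥ -length l`. -/
theorem hom_eq_zero_of_isLE (l : List A) : ∀ (M : DerivedCategory (ModuleCat.{u} A)),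
    (∀ i : ℤ, -(l.length : ℤ) ≤ i →
      IsZero ((DerivedCategory.homologyFunctor (ModuleCat.{u} A) i).obj M)) →
    ∀ φ : DerivedCategory.Q.obj (koszul A l) ⟶ M, φ = 0 := by
  induction l with
  | nil =>
    intro M hM φ
    have : Projective (ModuleCat.of A A) :=
      (IsProjective.iff_projective (R := A) (P := A)).1 inferInstance
    exact eq_zero_of_homology_map_eq_zero (ModuleCat.of A A) M φ
      ((hM 0 (by simp)).eq_of_tgt _ _)
  | cons f l ih =>
    intro M hM φ
    have hlen : ((f :: l).length : ℤ) = l.length + 1 := by simp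
    have h1 : (tri f l).mor₂ ≫ φ = 0 := ih M (fun i hi => hM i (by omega)) _
    obtain ⟨χ, hχ⟩ := (tri f l).yoneda_exact₃ (tri_distinguished f l) φ h1
    have h2 : χ = 0 := by
      apply (shiftFunctor (DerivedCategory (ModuleCat.{u} A)) (-1 : ℤ)).map_injective
      rw [← cancel_epi (shiftShiftNeg _ (1 : ℤ)).inv, Functor.map_zero, comp_zero]
      exact ih (M⟦(-1 : ℤ)⟧) (fun i hi =>
        (hM (-1 + i) (by omega)).of_iso (homologyShiftIso M (-1) i (-1 + i) rfl)) _
    rw [hχ, h2]
    exact comp_zero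

end Groth.Agent.Old.H5.KosSharp
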