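import Groth.Agent.PerfB.KoszulOrth
import Groth.Agent.Cohder.HomVanish
import Groth.Agent.Old.H5.KosSharp
import Groth.Agent.PerfA.PostAbs
import Groth.Agent.PerfA.QCohD

/-! Sharp Koszul orthogonality on `X = Spec A`, for objects of `D_QCoh`, and the comparison of
`E ⟶ Rj_* j^* E` after truncation (`j` the inclusion of the complement of `V(fs)`). -/

set_option autoImplicit false
universe w v u

open CategoryTheory CategoryTheory.Limits AlgebraicGeometry CategoryTheory.Pretriangulated
open DerivedCategory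
attribute [local instance] HasDerivedCategory.standard

namespace Groth.Agent.Old.H5.KosTrunc
open Groth.Agent.PerfA Groth.Agent.PerfB.KoszulHom Groth.Agent.PerfB.KoszulOn
open Groth.Agent.PerfB.PowerTorsion Groth.Agent.PerfB.KoszulOrth Groth.Agent.Cohder.HomVanish

section Abs

variable {C : Type u} [Category.{v} C] [Abelian C] [HasDerivedCategory.{w} C]

/-- `τ_{≥ a} f` is an isomorphism as soon as `H^q(f)` is for all `q ≥ a`. -/
lemma isIso_truncGE_map {K L : DerivedCategory C} (f : K ⟶ L) (a : ℤ)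
    (h : ∀ q : ℤ, a ≤ q → IsIso ((homologyFunctor C q).map f)) :
    IsIso ((TStructure.t.truncGE a).map f) := by
  rw [DerivedCategory.isIso_iff]
  intro q
  by_cases hq : a ≤ q
  · have h1 := PostAbs.isIso_homology_truncGEπ K a q hq
    have h2 := PostAbs.isIso_homology_truncGEπ L a q hq
    have h3 := h q hq
    have h4 : (homologyFunctor C q).map ((TStructure.t.truncGEπ a).app K) ≫
        (homologyFunctor C q).map ((TStructure.t.truncGE a).map f) =
        (homologyFunctor C q).map f ≫ (homologyFunctor C q).map ((TStructure.t.truncGEπ a).app L) := by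
      rw [← Functor.map_comp, ← Functor.map_comp, TStructure.t.truncGEπ_naturality]
    have h5 : IsIso ((homologyFunctor C q).map ((TStructure.t.truncGEπ a).app K) ≫
        (homologyFunctor C q).map ((TStructure.t.truncGE a).map f)) := by
      rw [h4]
      infer_instance
    exact IsIso.of_isIso_comp_left ((homologyFunctor C q).map ((TStructure.t.truncGEπ a).app K)) _
  · have h1 : IsZero ((homologyFunctor C q).obj ((TStructure.t.truncGE a).obj K)) :=
      isZero_of_isGE _ a q (by lia)
    have h2 : IsZero ((homologyFunctor C q).obj ((TStructure.t.truncGE a).obj L)) :=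
      isZero_of_isGE _ a q (by lia)
    exact ⟨0, h1.eq_of_src _ _, h2.eq_of_src _ _⟩

/-- `H^q(f)` is an isomorphism if `H^{q-1}` and `H^q` of the cone vanish. -/
lemma isIso_homology_map_of_cone (T : Triangle (DerivedCategory C)) (hT : T ∈ distTriang _) (q : ℤ)
    (h1 : IsZero ((homologyFunctor C (q - 1)).obj T.obj₃))
    (h2 : IsZero ((homologyFunctor C q).obj T.obj₃)) :
    IsIso ((homologyFunctor C q).map T.mor₁) := by
  have : Epi ((homologyFunctor C q).map T.mor₁) := by
    rw [HomologySequence.epi_homologyMap_mor₁_iff _ hT]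
    exact h2.eq_of_tgt _ _
  have : Mono ((homologyFunctor C q).map T.mor₁) := by
    rw [HomologySequence.mono_homologyMap_mor₁_iff _ hT (q - 1) q]
    exact h1.eq_of_src _ _
  exact isIso_of_mono_of_epi ((homologyFunctor C q).map T.mor₁)

end Abs

section Spec

variable {A : Type u} [CommRing A] (fs : List A)
variable [PreservesFiniteLimits (tilde.functor (CommRingCat.of A))]

/-- the Koszul object on `Spec A` -/
noncomputable abbrev kos : DCoh.D (Spec (CommRingCat.of A)) :=
  (DCoh.tildeD (CommRingCat.of A)).obj (DerivedCategory.Q.obj (Koszul.koszul A fs))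

/-- transport of vanishing of maps from the Koszul complex to `D(A)` -/
lemma hom_eq_zero_of_tilde {C : DCoh.D (Spec (CommRingCat.of A))} (M : DerivedCategory (ModuleCat.{u} A))
    (e : (DCoh.tildeD (CommRingCat.of A)).obj M ≅ C) (n : ℤ)
    (h : HomVan (kos fs) C n) :
    ∀ φ : DerivedCategory.Q.obj (Koszul.koszul A fs) ⟶ M⟦n⟧, φ = 0 := by
  intro φ
  obtain ⟨hfull, hfaith, hess⟩ := Groth.Agent.S0997.result (CommRingCat.of A)
  apply (DCoh.tildeD (CommRingCat.of A)).map_injective
  rw [Functor.map_zero]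
  have h1 : (DCoh.tildeD (CommRingCat.of A)).map φ ≫
      ((DCoh.tildeD (CommRingCat.of A)).commShiftIso n).hom.app M ≫
        (shiftFunctor _ n).map e.hom = 0 := h _
  have h2 : (((DCoh.tildeD (CommRingCat.of A)).map φ) ≫
      ((DCoh.tildeD (CommRingCat.of A)).commShiftIso n).hom.app M) ≫
        (shiftFunctor _ n).map e.hom = 0 := by
    rw [Category.assoc]
    exact h1
  rw [← cancel_mono (((DCoh.tildeD (CommRingCat.of A)).commShiftIso n).hom.app M), zero_comp]
  rw [← cancel_mono ((shiftFunctor _ n).map e.hom), zero_comp]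
  exact h2

lemma homVan_of_tilde {C : DCoh.D (Spec (CommRingCat.of A))} (M : DerivedCategory (ModuleCat.{u} A))
    (e : (DCoh.tildeD (CommRingCat.of A)).obj M ≅ C) (n : ℤ)
    (h : ∀ φ : DerivedCategory.Q.obj (Koszul.koszul A fs) ⟶ M⟦n⟧, φ = 0) :
    HomVan (kos fs) C n := by
  intro φ
  obtain ⟨hfull, hfaith, hess⟩ := Groth.Agent.S0997.result (CommRingCat.of A)
  obtain ⟨ψ, hψ⟩ := (DCoh.tildeD (CommRingCat.of A)).map_surjective
    (φ ≫ (shiftFunctor _ n).map e.inv ≫ ((DCoh.tildeD (CommRingCat.of A)).commShiftIso n).inv.app M)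
  rw [h ψ, Functor.map_zero] at hψ
  rw [← cancel_mono ((shiftFunctor _ n).map e.inv), zero_comp]
  rw [← cancel_mono (((DCoh.tildeD (CommRingCat.of A)).commShiftIso n).inv.app M), zero_comp,
    Category.assoc]
  exact hψ.symm

/-- Sharp: an object `C` of `D_QCoh` vanishing on `U` with `Hom(K, C⟦n⟧) = 0` has `H^n(C) = 0`. -/
theorem isZero_HD_of_homVan (C : DCoh.D (Spec (CommRingCat.of A))) (hC : DCoh.IsQCohD C)
    (hU : IsZero ((Restrict.restrictD (punct fs).ι).obj C)) (n : ℤ) (h : HomVan (kos fs) C n) :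
    IsZero (DCoh.HD C n) := by
  obtain ⟨hfull, hfaith, hess⟩ := Groth.Agent.S0997.result (CommRingCat.of A)
  obtain ⟨M, ⟨e⟩⟩ := (hess C).1 hC
  have hU' : IsZero ((Restrict.restrictD (punct fs).ι).obj
      ((DCoh.tildeD (CommRingCat.of A)).obj M)) :=
    hU.of_iso ((Restrict.restrictD (punct fs).ι).mapIso e)
  have htors : ∀ g ∈ fs, ∀ i, TorsD g i M := fun g hg i =>
    PerfB.TildeTorsion.torsD_of_isZero_restrict M (punct fs) i
      (((DerivedCategory.homologyFunctor _ i).map_isZero hU').of_iso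
        (Restrict.HDrestrict (punct fs).ι _ i).symm) g
      (PerfB.TildeTorsion.basicOpen_le_puncturedOpen fs g hg)
  have h1 := KosSharp.isZero_homology M fs n htors (hom_eq_zero_of_tilde fs M e n h)
  refine IsZero.of_iso ((tilde.functor (CommRingCat.of A)).map_isZero h1) ?_
  exact (DerivedCategory.homologyFunctor _ n).mapIso e.symm ≪≫
    TildeSupp.HDtilde (R := CommRingCat.of A) M n

/-- `Hom(K, C⟦n⟧) = 0` if `C ∈ D_QCoh` has no cohomology in degrees `≥ n - length fs`. -/
theorem homVan_of_isZero_HD (C : DCoh.D (Spec (CommRingCat.of A))) (hC : DCoh.IsQCohD C) (n : ℤ)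
    (h : ∀ i : ℤ, n - (fs.length : ℤ) ≤ i → IsZero (DCoh.HD C i)) : HomVan (kos fs) C n := by
  obtain ⟨hfull, hfaith, hess⟩ := Groth.Agent.S0997.result (CommRingCat.of A)
  obtain ⟨M, ⟨e⟩⟩ := (hess C).1 hC
  refine homVan_of_tilde fs M e n (KosSharp.hom_eq_zero_of_isLE fs (M⟦n⟧) (fun i hi => ?_))
  refine IsZero.of_iso ?_ (homologyShiftIso M n i (n + i) rfl)
  have h1 : IsZero ((tilde.functor (CommRingCat.of A)).obj
      ((DerivedCategory.homologyFunctor (ModuleCat.{u} A) (n + i)).obj M)) :=
    (h (n + i) (by omega)).of_iso ((TildeSupp.HDtilde (R := CommRingCat.of A) M (n + i)).symm ≪≫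
      (DerivedCategory.homologyFunctor _ (n + i)).mapIso e)
  rw [IsZero.iff_id_eq_zero] at h1 ⊢
  apply (tilde.fullyFaithfulFunctor (R := CommRingCat.of A)).map_injective
  rw [CategoryTheory.Functor.map_id, Functor.map_zero]
  exact h1

section Main

variable [PreservesFiniteLimits (Scheme.Modules.restrictFunctor (punct fs).ι)]
  [DCoh.HasRpush (punct fs).ι]
  (adj : DCoh.restrictD (punct fs).ι ⊣ DCoh.Rpush (punct fs).ι)

include adj in
omit [PreservesFiniteLimits (tilde.functor (CommRingCat.of A))] in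
/-- The counit of any adjunction `j^* ⊣ Rj_*` is invertible. -/
lemma isIso_counit : IsIso adj.counit := by
  have h := (PerfB.OpenAdj.openAdj (punct fs).ι).fullyFaithfulROfIsIsoCounit
  have := h.full
  have := h.faithful
  infer_instance

include adj in
/-- `Hom(K, Rj_* M⟦n⟧) = 0`. -/
lemma homVan_Rpush (M : DCoh.D ((punct fs : _) : Scheme.{u})) (n : ℤ) :
    HomVan (kos fs) ((DCoh.Rpush (punct fs).ι).obj M) n :=
  (homVan_iff _ _ n (-n) (by omega)).2 (orth_rpush fs M (-n))

theorem main_GE (E : DCoh.D (Spec (CommRingCat.of A))) (hE : DCoh.IsQCohD E) (a : ℤ) :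
    ((∀ n : ℤ, a ≤ n → ∀ φ : (kos fs)⟦-n⟧ ⟶ E, φ = 0) →
      IsIso ((DerivedCategory.TStructure.t.truncGE a).map (adj.unit.app E))) ∧
    (IsIso ((DerivedCategory.TStructure.t.truncGE a).map (adj.unit.app E)) →
      ∀ n : ℤ, a + (fs.length : ℤ) ≤ n → ∀ φ : (kos fs)⟦-n⟧ ⟶ E, φ = 0) := by
  have hcounit := isIso_counit fs adj
  have hE' : DCoh.IsQCohD ((DCoh.Rpush (punct fs).ι).obj ((DCoh.restrictD (punct fs).ι).obj E)) :=
    Groth.Agent.S0998.result (punct fs).ι _ (isQCohD_restrictD (punct fs).ι E hE)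
  constructor
  · intro H
    obtain ⟨C, g, h, hT⟩ := distinguished_cocone_triangle (adj.unit.app E)
    have hC : DCoh.IsQCohD C := isQCohD_obj₃ _ hT hE hE'
    have hCU : IsZero ((Restrict.restrictD (punct fs).ι).obj C) :=
      (Triangle.isZero₃_iff_isIso₁ _ ((DCoh.restrictD (punct fs).ι).map_distinguished _ hT)).2
        (PerfB.OpenAdj.isIso_map_unit_of_isIso_counit adj E)
    have hEn : ∀ n : ℤ, a ≤ n → HomVan (kos fs) E n := fun n hn =>
      (homVan_iff _ _ n (-n) (by omega)).2 (H n hn)
    have hCn : ∀ n : ℤ, a - 1 ≤ n → IsZero (DCoh.HD C n) := fun n hn =>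
      isZero_HD_of_homVan fs C hC hCU n
        (HomVan.obj₃ hT (i := n) (j := n + 1) rfl (homVan_Rpush fs adj _ n)
          (hEn (n + 1) (by omega)))
    exact isIso_truncGE_map _ a (fun q hq =>
      isIso_homology_map_of_cone _ hT q (hCn (q - 1) (by omega)) (hCn q (by omega)))
  · intro hiso n hn
    have hLT : ∀ (F : DCoh.D (Spec (CommRingCat.of A))) (i : ℤ), a ≤ i →
        IsZero (DCoh.HD ((TStructure.t.truncLT a).obj F) i) := fun F i hi =>
      isZero_of_isLE _ (a - 1) i (by lia)
    have h1 : HomVan (kos fs) ((TStructure.t.truncGE a).obj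
        ((DCoh.Rpush (punct fs).ι).obj ((DCoh.restrictD (punct fs).ι).obj E))) n :=
      HomVan.obj₃ (TStructure.t.triangleLTGE_distinguished a _) (i := n) (j := n + 1) rfl
        (homVan_Rpush fs adj _ n)
        (homVan_of_isZero_HD fs _ (QCohD.isQCohD_truncLT hE' a) (n + 1)
          (fun i hi => hLT _ i (by omega)))
    have h2 : HomVan (kos fs) ((TStructure.t.truncGE a).obj E) n :=
      h1.of_iso (asIso ((TStructure.t.truncGE a).map (adj.unit.app E))).symm
    have h3 : HomVan (kos fs) E n :=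
      HomVan.obj₂ (TStructure.t.triangleLTGE_distinguished a E)
        (homVan_of_isZero_HD fs _ (QCohD.isQCohD_truncLT hE a) n (fun i hi => hLT _ i (by omega)))
        h2
    exact (homVan_iff _ _ n (-n) (by omega)).1 h3

end Main

end Spec

end Groth.Agent.Old.H5.KosTrunc
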